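import Cfsg.Agent.H808.RV.FTw
import Cfsg.Agent.H563.RV.LemAC
import Cfsg.Agent.H129.TorusUntw

/-!
# Frames of fundamental subgroups and Lemma A (helper808, TEAM RV)

`HasFrameA p S` : for every Sylow 2-subgroup `P` of `S` a frame such that the involutions of the frame centralise the
`P`-invariant subgroups of odd order prime to `p`; `frameA_f4`, `frameA_e6`, `frameA_tw`, `frameA_e7`, `frameA_e8`.
-/

set_option autoImplicit false
set_option linter.unusedSectionVars false

namespace Cfsg.Agent.H808.RV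

open Subgroup Cfsg Cfsg.Lie Cfsg.Lie.ChevalleyDatum Cfsg.Agent.ChevalleyStructure
  Cfsg.Agent.ChevalleyStructure.Elts Cfsg.Agent.ChevalleyStructure.CoxeterGeom Cfsg.Agent.Nodes.RGDChev
open Cfsg.Agent.Nodes.RGDFoldSL (wS hS coe_wS coe_hS psi psi_up psi_lo psi_hS map_up map_lo map_hS)
open Cfsg.Agent.ChevalleyStructure.SL2Hom (up lo mem_closure_SL2)
open Cfsg.Agent.GpExc.Field (glMap glMap_xG glMap_mem glMap_injective)
open Cfsg.Agent.H167.EX (ph coe_ph SL)
open Cfsg.Agent.H563.RV.LemA (pz pz_lt Tab Ort Dist lemA_hom_single)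
open Cfsg.Agent.BpExc.TowChev (LocFin)

universe u v w

theorem glMap_psi {D : ChevalleyDatum} (hD : InList D) {K : Type u} [Field K] {k : Type w} [Field k] (fK : K →+* k)
    {r : ℕ} (hr : r < D.nroots) (A : Matrix.SpecialLinearGroup (Fin 2) K) :
    glMap D fK (psi hD K r A) = psi hD k r (Matrix.SpecialLinearGroup.map fK A) := by
  have h5 : A ∈ ((glMap D fK).comp (psi hD K r)).eqLocus ((psi hD k r).comp (Matrix.SpecialLinearGroup.map fK)) := by
    refine (Subgroup.closure_le _).2 ?_ (mem_closure_SL2 A)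
    rintro _ (⟨t, rfl⟩ | ⟨t, rfl⟩)
    · show glMap D fK (psi hD K r (up t)) = psi hD k r (Matrix.SpecialLinearGroup.map fK (up t))
      rw [map_up, psi_up hD hr, psi_up hD hr, glMap_xG]
    · show glMap D fK (psi hD K r (lo t)) = psi hD k r (Matrix.SpecialLinearGroup.map fK (lo t))
      rw [map_lo, psi_lo hD hr, psi_lo hD hr, glMap_xG]
  exact h5

/-- Frames for every Sylow 2-subgroup, with Lemma A -/
def HasFrameA (p : ℕ) (S : Type v) [Group S] : Prop :=
  ∀ P : Sylow 2 S, ∃ (ι : Type) (_ : Finite ι) (_ : Nonempty ι) (L : ι → Subgroup S) (z : ι → S),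
    FrameD (P : Subgroup S) L z ∧ Rel z ∧ ∀ R : Subgroup S, Odd (Nat.card R) → ¬ p ∣ Nat.card R →
      (∀ x ∈ P, ∀ r ∈ R, x * r * x⁻¹ ∈ R) → ∀ i, ∀ r ∈ R, z i * r = r * z i

section Main

variable {D : ChevalleyDatum} {l : ℕ} {M : CoxeterMatrix (Fin l)} (hp : IsType D l M) {K : Type u} [Field K]

theorem frame_emb [Finite K] {p : ℕ} [hpp : Fact p.Prime] [hpK : CharP K p] (hp5 : 5 ≤ p) {E : Subfield K} {F : List ℕ}
    {Sub : List (List ℕ)} (T : Tabs D l F Sub) (hF0 : F ≠ [])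
    (hfix : ∀ n : ↥(D.monomialSubgroup K), (∀ r (hr : r ∈ F), NPerm.permHom hp.inList K n ⟨r, T.lt r hr⟩ = ⟨r, T.lt r hr⟩) →
      NPerm.permHom hp.inList K n = 1)
    {S : Type v} [Group S] [Finite S] {f : S →* GL D.Idx K} (hf : Function.Injective f) (hfG : ∀ x, f x ∈ D.group K)
    (hmem : ∀ r ∈ F, ∀ t ∈ E, xG hp.inList r t ∈ f.range ∧ xG hp.inList (D.neg r) t ∈ f.range)
    (hE : ∀ r ∈ F, ∀ A, psi hp.inList K r A ∈ f.range → psi hp.inList K r A ∈ (jE hp.inList E r).range)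
    (hDist : Dist D) (TA : Tab D (F.map fun a => [a])) (hO : Ort hp (k := AlgebraicClosure K) F) : HasFrameA p S := by
  intro P
  have := Fintype.ofFinite K
  have hD := hp.inList
  obtain ⟨p', e, hp', hpF', hpk', -, -, hk⟩ := Cfsg.Agent.H129.TorusUntw.exists_closure (F := K) rfl
  have hpe : p' = p := CharP.eq K hpF' hpK
  subst hpe
  have h2 : (2 : K) ≠ 0 := two_ne hp5
  have hcE : 5 ≤ Nat.card E := by
    have : CharP E p' := RingHom.charP E.subtype E.subtype_injective p'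
    exact hp5.trans (card_field hpp.out)
  have h4 : 4 ≤ Nat.card E := by omega
  obtain ⟨L, z, hfr, hrel, g, hg⟩ := main_frame' hp h2 hcE T hfix hf hfG hmem hE P
  refine ⟨{r // r ∈ F}, inferInstance, ?_, L, z, hfr, hrel, ?_⟩
  · obtain ⟨a, F', rfl⟩ := List.exists_cons_of_ne_nil hF0
    exact ⟨⟨a, List.mem_cons_self⟩⟩
  intro R hRodd hRp hPR
  let k := AlgebraicClosure K
  let fK : K →+* k := algebraMap K k
  let φ : S →* ↥(D.group k) := ((glMap D fK).comp f).codRestrict (D.group k) fun x => glMap_mem hD fK (hfG x)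
  have hφ : Function.Injective φ := fun a b h => hf (glMap_injective D fK (congrArg Subtype.val h))
  have hcoe : ∀ x, ((φ x : ↥(D.group k)) : GL D.Idx k) = glMap D fK (f x) := fun _ => rfl
  choose y hyP hyz using hfr.sq
  choose B hB using fun r : {r // r ∈ F} => hg r (y r) (hyP r).2
  have h2E : (2 : E) ≠ 0 := by
    intro h
    apply h2
    have h0 := congrArg E.subtype h
    rwa [map_ofNat, map_zero] at h0
  have hj : ∀ r ∈ F, Function.Injective (jE hD E r) := by
    intro r hr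
    obtain ⟨j, hj⟩ := tabZ_spec hp T.Z hr
    have h4K : 4 ≤ Nat.card K := h4.trans (Nat.card_le_card_of_injective _ E.subtype_injective)
    exact (psi_injective hD h2 h4K (T.lt r hr) (NPerm.simple_lt hD (Nodes.RGDChev.lt_rank hp j)) hj).comp
      (map_injective E)
  have hBB : ∀ r, B r * B r = hS (-1) := by
    intro r
    have e1 : f (z r) = f g * jE hD E r (B r * B r) * (f g)⁻¹ := by
      rw [← hyz r, map_mul, hB r, map_mul]
      group
    have hz1 := (hfr.fund r).ne_one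
    have hzz := (hfr.fund r).sq
    apply eq_hS h2E
    · apply hj r r.2
      have e2 : f (z r * z r) = f g * jE hD E r ((B r * B r) * (B r * B r)) * (f g)⁻¹ := by
        rw [map_mul, e1, map_mul (jE hD E r) (B r * B r)]
        group
      rw [hzz, map_one] at e2
      have e3 : jE hD E r (B r * B r * (B r * B r)) = (f g)⁻¹ * (f g * jE hD E r (B r * B r * (B r * B r)) * (f g)⁻¹) * f g := by
        group
      rw [e3, ← e2, map_one]
      group
    · intro h
      apply hz1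
      apply hf
      rw [e1, h, map_one, map_one]
      group
  classical
  let y' : ℕ → S := fun a => if h : a ∈ F then y ⟨a, h⟩ else 1
  let A : ℕ → SL k := fun a => if h : a ∈ F then
    Matrix.SpecialLinearGroup.map fK (Matrix.SpecialLinearGroup.map E.subtype (B ⟨a, h⟩)) else 1
  have hy' : ∀ a (h : a ∈ F), y' a = y ⟨a, h⟩ := fun a h => dif_pos h
  have hA' : ∀ a (h : a ∈ F), A a =
    Matrix.SpecialLinearGroup.map fK (Matrix.SpecialLinearGroup.map E.subtype (B ⟨a, h⟩)) := fun a h => dif_pos h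
  have key := lemA_hom_single hp (k := k) p' hp5 hk hDist TA hO (A := A) (by
      intro a ha
      rw [hA' a ha, ← map_mul, ← map_mul, hBB, map_hS, map_hS, map_neg, map_one, map_neg, map_one])
    hφ (g := φ g) (y := y') (by
      intro a ha
      rw [hy' a ha, hA' a ha, pz_lt hp (T.lt a ha)]
      apply Subtype.ext
      rw [hcoe, hB]
      rw [map_mul, map_mul, map_inv]
      show _ = glMap D fK (f g) * psi hD k a _ * (glMap D fK (f g))⁻¹
      rw [← glMap_psi hD fK (T.lt a ha)]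
      rfl) (R := R) hRodd hRp (by
      intro a ha x hx
      rw [hy' a ha]
      exact hPR _ (hyP ⟨a, ha⟩).1 x hx)
  intro i r hr
  have h6 := key i i.2 r hr
  rw [hy' i i.2, hyz] at h6
  exact h6

end Main

section Rows

variable {S : Type v} [Group S] [Finite S]

/-- the untwisted groups -/
theorem frameA_untw {D : ChevalleyDatum} {l : ℕ} {M : CoxeterMatrix (Fin l)} (hT : IsType D l M) {K : Type u} [Field K]
    [Finite K] {p : ℕ} [CharP K p] (hp : p.Prime) (h5 : 5 ≤ p) {F : List ℕ} {Sub : List (List ℕ)} (hF : F ≠ [])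
    (T : Tabs D l F Sub)
    (hfix : ∀ n : ↥(D.monomialSubgroup K), (∀ r (hr : r ∈ F), NPerm.permHom hT.inList K n ⟨r, T.lt r hr⟩ = ⟨r, T.lt r hr⟩) →
      NPerm.permHom hT.inList K n = 1)
    (hDist : Dist D) (TA : Tab D (F.map fun a => [a])) (hO : Ort hT (k := AlgebraicClosure K) F)
    (hS : Nonempty (S ≃* D.group K)) : HasFrameA p S := by
  have := Fact.mk hp
  obtain ⟨φ⟩ := hS
  have hf : Function.Injective ((D.group K).subtype.comp φ.toMonoidHom) :=
    (D.group K).subtype_injective.comp φ.injective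
  have hrange : ∀ x, x ∈ D.group K → x ∈ ((D.group K).subtype.comp φ.toMonoidHom).range := by
    intro x hx
    exact ⟨φ.symm ⟨x, hx⟩, by simp⟩
  exact frame_emb hT h5 (E := ⊤) T hF hfix hf
    (fun x => (φ x).2) (fun r hr t _ => ⟨hrange _ (xG_mem_group _ _ _), hrange _ (xG_mem_group _ _ _)⟩)
    (fun r hr A _ => by
      refine ⟨⟨A.1.map fun c => (⟨c, trivial⟩ : (⊤ : Subfield K)), ?_⟩, ?_⟩
      · apply (⊤ : Subfield K).subtype_injective
        have h3 := A.2
        rw [Matrix.det_fin_two] at h3 ⊢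
        rw [map_one, map_sub, map_mul, map_mul]
        exact h3
      · show psi _ K r _ = _
        congr 1) hDist TA hO

variable {F : Type u} [Field F] [Finite F] {p : ℕ} [CharP F p]

theorem frameA_f4 (hp : p.Prime) (h5 : 5 ≤ p) (hS : Nonempty (S ≃* chevF4.group F)) : HasFrameA p S :=
  frameA_untw f4T hp h5 (by decide) tabs_F4 (fix_of_tabR f4T lt_F4 tabR_F4) Cfsg.Agent.H563.RV.LemA.dist_F4
    Cfsg.Agent.H563.RV.LemA.tab_F4 (Cfsg.Agent.H563.RV.LemA.ort_F4 f4T) hS

theorem frameA_e6 (hp : p.Prime) (h5 : 5 ≤ p) (hS : Nonempty (S ≃* chevE6.group F)) : HasFrameA p S :=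
  frameA_untw e6T hp h5 (by decide) tabs_E6 (fix_E6 e6T) Cfsg.Agent.H563.RV.LemA.dist_E6
    Cfsg.Agent.H563.RV.LemA.tab_E6 (Cfsg.Agent.H563.RV.LemA.ort_E6 e6T) hS

theorem frameA_e7 (hp : p.Prime) (h5 : 5 ≤ p) (hS : Nonempty (S ≃* chevE7.group F)) : HasFrameA p S :=
  frameA_untw e7T hp h5 (by decide) tabs_E7 (fix_of_tabR e7T lt_E7 tabR_E7) Cfsg.Agent.H563.RV.LemA.dist_E7
    Cfsg.Agent.H563.RV.LemA.tab_E7 (Cfsg.Agent.H563.RV.LemA.ort_E7 e7T) hS

theorem frameA_e8 (hp : p.Prime) (h5 : 5 ≤ p) (hS : Nonempty (S ≃* chevE8.group F)) : HasFrameA p S :=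
  frameA_untw e8T hp h5 (by decide) tabs_E8 (fix_of_tabR e8T lt_E8 tabR_E8) Cfsg.Agent.H563.RV.LemA.dist_E8
    Cfsg.Agent.H563.RV.LemA.tab_E8 (Cfsg.Agent.H563.RV.LemA.ort_E8 e8T) hS

theorem frameA_tw {K : Type u} [Field K] [Fintype K] {p : ℕ} [CharP K p] (hp : p.Prime) (h5 : 5 ≤ p) {q : ℕ}
    (hq : IsPrimePow q) (hK : Fintype.card K = q ^ 2) (hS : Nonempty (S ≃* twistedE6 K q)) : HasFrameA p S := by
  have := Fact.mk hp
  obtain ⟨ψ⟩ := hS
  obtain ⟨φ, hφ, hqq⟩ := Cfsg.Agent.ChevalleyStructure.TwE6Basic.exists_frob (K := K) hq hK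
  have hle : twistedE6 K q ≤ chevE6.group K := by
    rw [Cfsg.Agent.ChevalleyStructure.TwE6Basic.twisted_le_iff]
    exact ⟨fun t _ r _ => xG_mem_group _ _ _, fun t rs _ => mul_mem (xG_mem_group _ _ _) (xG_mem_group _ _ _)⟩
  have hf : Function.Injective ((twistedE6 K q).subtype.comp ψ.toMonoidHom) :=
    (twistedE6 K q).subtype_injective.comp ψ.injective
  have hrange : ∀ x, x ∈ twistedE6 K q → x ∈ ((twistedE6 K q).subtype.comp ψ.toMonoidHom).range := by
    intro x hx
    exact ⟨ψ.symm ⟨x, hx⟩, by simp⟩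
  have hinj : ∀ r ∈ FE6, Function.Injective (psi e6T.inList K r) := by
    intro r hr
    obtain ⟨j, hj⟩ := tabZ_spec e6T tabs_E6.Z hr
    exact psi_injective e6T.inList (two_ne h5) (by have := card_field (K := K) hp; omega) (lt_E6 r hr)
      (NPerm.simple_lt e6T.inList (Nodes.RGDChev.lt_rank e6T j)) hj
  exact frame_emb e6T h5 (E := Ef φ) tabs_E6 (by decide) (fix_E6 e6T) hf
    (fun x => hle (ψ x).2) (fun r hr t ht => ⟨hrange _ (tw_mem hφ hqq _ hr ht).1, hrange _ (tw_mem hφ hqq _ hr ht).2⟩)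
    (fun r hr A hA => tw_fix hφ hqq _ hr (hinj r hr) (by
      obtain ⟨a, ha⟩ := hA
      rw [← ha]
      exact (ψ a).2)) Cfsg.Agent.H563.RV.LemA.dist_E6
    Cfsg.Agent.H563.RV.LemA.tab_E6 (Cfsg.Agent.H563.RV.LemA.ort_E6 e6T)

end Rows

end Cfsg.Agent.H808.RV
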